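import Groth.Agent.PerfA.Restrict
import Groth.Agent.PerfA.StalkExact

/-!
# Extension of morphisms of modules along an open immersion, and stalks of kernel and cokernel
-/

set_option autoImplicit false
universe u
open CategoryTheory CategoryTheory.Limits AlgebraicGeometry

namespace Groth.Agent.Dual.H375.StalkIso
open AlgebraicGeometry.Scheme.Modules Groth.Agent.PerfA.Restrict Groth.Agent.PerfA.StalkExact

section Abelian

variable {C D : Type*} [Category C] [Category D] [Abelian C] [Abelian D]

/-- Kernel and cokernel die under an exact functor iff the image is an isomorphism. -/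
theorem isIso_map_iff (F : C ⥤ D) [F.Additive] [PreservesFiniteLimits F] [PreservesFiniteColimits F]
    {A B : C} (φ : A ⟶ B) :
    IsIso (F.map φ) ↔ IsZero (F.obj (kernel φ)) ∧ IsZero (F.obj (cokernel φ)) := by
  have e1 : F.obj (kernel φ) ≅ kernel (F.map φ) := PreservesKernel.iso F φ
  have e2 : F.obj (cokernel φ) ≅ cokernel (F.map φ) := PreservesCokernel.iso F φ
  constructor
  · intro h
    exact ⟨(isZero_kernel_of_mono (F.map φ)).of_iso e1,
      (isZero_cokernel_of_epi (F.map φ)).of_iso e2⟩
  · rintro ⟨h1, h2⟩
    have hm : Mono (F.map φ) := Preadditive.mono_of_isZero_kernel _ (h1.of_iso e1.symm)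
    have he : Epi (F.map φ) := Preadditive.epi_of_isZero_cokernel _ (h2.of_iso e2.symm)
    exact isIso_of_mono_of_epi _

end Abelian

variable {X U : Scheme.{u}}

theorem isIso_stalk_iff {E F : X.Modules} (φ : E ⟶ F) (x : X) :
    IsIso ((stalkAb x).map φ) ↔ IsZero ((kernel φ).presheaf.stalk x) ∧
      IsZero ((cokernel φ).presheaf.stalk x) :=
  isIso_map_iff (stalkAb x) φ

variable (j : U ⟶ X) [IsOpenImmersion j]

theorem isIso_stalk_restrict_iff {E F : X.Modules} (φ : E ⟶ F) (x : U) :
    IsIso ((stalkAb x).map ((restrictFunctor j).map φ)) ↔ IsIso ((stalkAb (j x)).map φ) :=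
  NatIso.isIso_map_iff (stalkRestrict j x) φ

/-- A morphism over an open extends when `F ⟶ j_* j^* F` is an isomorphism. -/
theorem exists_extend {E F : X.Modules} (h : IsIso ((restrictAdjunction j).unit.app F))
    (α : E.restrict j ⟶ F.restrict j) : ∃ β : E ⟶ F, (restrictFunctor j).map β = α := by
  refine ⟨(restrictAdjunction j).homEquiv _ _ α ≫ inv ((restrictAdjunction j).unit.app F), ?_⟩
  apply ((restrictAdjunction j).homEquiv _ _).injective
  rw [Adjunction.homEquiv_unit, Functor.map_comp, ← Adjunction.homEquiv_unit]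
  have h1 := (restrictAdjunction j).unit.naturality
    ((restrictAdjunction j).homEquiv _ _ α ≫ inv ((restrictAdjunction j).unit.app F))
  simp only [Functor.id_obj, Functor.id_map, Functor.comp_obj, Functor.comp_map] at h1
  rw [Adjunction.homEquiv_unit, ← Functor.map_comp, ← h1]
  simp

end Groth.Agent.Dual.H375.StalkIso
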