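import Groth.Prelude.Def_Dual3
import Groth.Agent.S1494
import Groth.Agent.S1493
import Groth.Agent.VarietyA.RegSmoothSch
import Mathlib.AlgebraicGeometry.Fiber

/-!
# The lci locus of a morphism; smooth morphisms are lci
-/

set_option autoImplicit false
set_option linter.style.haveILetI false
universe u
open CategoryTheory CategoryTheory.Limits AlgebraicGeometry

namespace Groth.Agent.Dual.H375.LciLocus
open Groth.Agent.Flat2H

/-- The morphism property attached to local complete intersection ring maps. -/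
noncomputable abbrev LM : MorphismProperty Scheme.{u} := AlgProp.toMor (fun A B => LCI.IsLCI A B)

instance : HasRingHomProperty LM.{u}
    (AlgProp.toRingHom (fun (A B : Type u) [CommRing A] [CommRing B] [Algebra A B] => LCI.IsLCI A B)) :=
  LCIMaps2.isLocal_isLCI.hasRingHomProperty

theorem isLCIMor_iff {X Y : Scheme.{u}} (f : X ⟶ Y) : Dual3.IsLCIMor f ↔ LM f := by
  rw [HasRingHomProperty.iff_exists_appLE (P := LM) LCIMaps2.isLocal_isLCI.holdsForComp_source]
  constructor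
  · intro h x
    obtain ⟨U, V, e, hx, h1⟩ := h x
    exact ⟨V, U, hx, e, h1⟩
  · intro h x
    obtain ⟨V, U, hx, e, h1⟩ := h x
    exact ⟨U, V, e, hx, h1⟩

/-- lci is local at the source -/
theorem isLCIMor_of_cover {X Y : Scheme.{u}} (f : X ⟶ Y)
    (h : ∀ x : X, ∃ U : X.Opens, x ∈ U ∧ Dual3.IsLCIMor (U.ι ≫ f)) : Dual3.IsLCIMor f := by
  rw [isLCIMor_iff]
  choose U hx hU using h
  have hs : iSup U = ⊤ := by
    rw [eq_top_iff]
    intro x _
    exact TopologicalSpace.Opens.mem_iSup.2 ⟨x, hx x⟩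
  exact IsZariskiLocalAtSource.of_iSup_eq_top (P := LM) U hs fun x => (isLCIMor_iff _).1 (hU x)

/-- Composition with an open immersion on the source. -/
theorem isLCIMor_comp {X Y W : Scheme.{u}} (j : W ⟶ X) [IsOpenImmersion j] (f : X ⟶ Y)
    (h : Dual3.IsLCIMor f) : Dual3.IsLCIMor (j ≫ f) := by
  rw [isLCIMor_iff] at h ⊢
  exact IsZariskiLocalAtSource.comp h j

theorem isLCIMor_of_le {X Y : Scheme.{u}} {f : X ⟶ Y} {U W : X.Opens} (hle : W ≤ U)
    (h : Dual3.IsLCIMor (U.ι ≫ f)) : Dual3.IsLCIMor (W.ι ≫ f) := by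
  have h1 : W.ι ≫ f = X.homOfLE hle ≫ (U.ι ≫ f) := by
    rw [← Category.assoc, Scheme.homOfLE_ι]
  rw [h1]
  exact isLCIMor_comp _ _ h

/-- The lci locus of `f`. -/
def lciLocus {X Y : Scheme.{u}} (f : X ⟶ Y) : X.Opens :=
  sSup {U : X.Opens | Dual3.IsLCIMor (U.ι ≫ f)}

theorem mem_lciLocus {X Y : Scheme.{u}} {f : X ⟶ Y} {x : X} :
    x ∈ lciLocus f ↔ ∃ U : X.Opens, x ∈ U ∧ Dual3.IsLCIMor (U.ι ≫ f) := by
  rw [lciLocus, TopologicalSpace.Opens.mem_sSup]
  exact ⟨fun ⟨U, h1, h2⟩ => ⟨U, h2, h1⟩, fun ⟨U, h1, h2⟩ => ⟨U, h2, h1⟩⟩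

theorem isLCIMor_lciLocus {X Y : Scheme.{u}} (f : X ⟶ Y) : Dual3.IsLCIMor ((lciLocus f).ι ≫ f) := by
  apply isLCIMor_of_cover
  intro x
  obtain ⟨U, hxU, hU⟩ := mem_lciLocus.1 x.2
  refine ⟨(lciLocus f).ι ⁻¹ᵁ U, hxU, ?_⟩
  have hle : (lciLocus f).ι ''ᵁ ((lciLocus f).ι ⁻¹ᵁ U) ≤ U := Scheme.Hom.image_preimage_le _ _
  let k : ((lciLocus f).ι ⁻¹ᵁ U : Scheme.{u}) ⟶ U :=
    IsOpenImmersion.lift U.ι (((lciLocus f).ι ⁻¹ᵁ U).ι ≫ (lciLocus f).ι) (by
      rintro _ ⟨z, rfl⟩
      rw [Scheme.Opens.range_ι]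
      exact z.2)
  have hk : k ≫ U.ι = ((lciLocus f).ι ⁻¹ᵁ U).ι ≫ (lciLocus f).ι := IsOpenImmersion.lift_fac _ _ _
  have : IsOpenImmersion k := by
    have : IsOpenImmersion (k ≫ U.ι) := by rw [hk]; infer_instance
    exact IsOpenImmersion.of_comp k U.ι
  rw [← Category.assoc, ← hk, Category.assoc]
  exact isLCIMor_comp k _ hU

section Smooth

variable {X Y : Scheme.{u}} (f : X ⟶ Y)

omit f in
theorem isRegular_of_smooth {R : CommRingCat.{u}} (hR : IsField R) (g : X ⟶ Spec R) [Smooth g] (x : X) :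
    IsRegularLocalRing (X.presheaf.stalk x) := by
  letI := hR.toField
  exact Groth.Agent.VarietyA.RegSmoothSch.isRegularLocalRing_stalk_of_mem_smoothLocus (k := R) g x
    (by rw [Scheme.Hom.smoothLocus_eq_top]; trivial)

omit f in
theorem isLocallyNoetherian_of_field {R : CommRingCat.{u}} (hR : IsField R) (g : X ⟶ Spec R)
    [LocallyOfFiniteType g] : IsLocallyNoetherian X := by
  letI := hR.toField
  exact LocallyOfFiniteType.isLocallyNoetherian g

/-- A smooth morphism is lci. -/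
theorem isLCIMor_of_smooth [Smooth f] : Dual3.IsLCIMor f := by
  intro x
  have hpb := IsPullback.of_hasPullback f (Y.fromSpecResidueField (f x))
  have h := (Groth.Agent.S1494.result f (𝟙 Y)).2 (Y.fromSpecResidueField (f x))
    (Y.fromSpecResidueField (f x)) (𝟙 _) IsPullback.of_id_snd (f.fiberι (f x))
    (f.fiberToSpecResidueField (f x)) (by
      rw [Category.comp_id, Category.comp_id]
      exact hpb) hpb.w
  have hsm : Smooth (f.fiberToSpecResidueField (f x)) :=
    MorphismProperty.of_isPullback (P := @Smooth) hpb inferInstance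
  have hfield : IsField (Y.residueField (f x)) := Field.toIsField _
  have hsm1 : LocallyOfFiniteType (f.fiberToSpecResidueField (f x)) := inferInstance
  have hloc : IsLocallyNoetherian (f.fiber (f x)) :=
    isLocallyNoetherian_of_field hfield (f.fiberToSpecResidueField (f x))
  have hloc2 : IsLocallyNoetherian (Spec (Y.residueField (f x))) :=
    isLocallyNoetherian_of_field hfield (𝟙 (Spec (Y.residueField (f x))))
  have h2 := Groth.Agent.S1493.result (f.fiberToSpecResidueField (f x))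
    (fun z => isRegular_of_smooth hfield (f.fiberToSpecResidueField (f x)) z)
    (fun z => isRegular_of_smooth hfield (𝟙 (Spec (Y.residueField (f x)))) z)
  have h3 : (f.asFiber x : f.fiber (f x)) ∈ f.fiberι (f x) ⁻¹' {x : X | (∃ (U : X.Opens) (V : Y.Opens) (hU : IsAffineOpen U) (hV : IsAffineOpen V) (hUV : U ≤ f ⁻¹ᵁ V), x ∈ U ∧
          letI := (f.appLE V U hUV).hom.toAlgebra
          LCI.IsLCI Γ(Y, V) Γ(X, U))} := by
    rw [← h]
    obtain ⟨V, hV, hxV, -⟩ := exists_isAffineOpen_mem_and_subset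
      (X := Spec (Y.residueField (f x))) (x := f.fiberToSpecResidueField (f x) (f.asFiber x)) (U := ⊤)
      trivial
    obtain ⟨U, hU, hxU, hUV⟩ := exists_isAffineOpen_mem_and_subset (X := f.fiber (f x))
      (x := f.asFiber x) (U := f.fiberToSpecResidueField (f x) ⁻¹ᵁ V) hxV
    exact ⟨U, V, hU, hV, hUV, hxU, h2 U V hU hV hUV⟩
  obtain ⟨U, V, hU, hV, hUV, hx, h4⟩ := h3
  rw [Scheme.Hom.fiberι_asFiber] at hx
  exact ⟨⟨U, hU⟩, ⟨V, hV⟩, hUV, hx, h4⟩

/-- The smooth locus is contained in the lci locus. -/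
theorem smoothLocus_le_lciLocus [LocallyOfFinitePresentation f] : f.smoothLocus ≤ lciLocus f := by
  intro x hx
  refine mem_lciLocus.2 ⟨f.smoothLocus, hx, ?_⟩
  have : Smooth (f.smoothLocus.ι ≫ f) := by
    rw [← Scheme.Hom.smoothLocus_eq_top_iff, ← Scheme.Hom.preimage_smoothLocus_eq]
    exact Scheme.Opens.ι_preimage_self _
  exact isLCIMor_of_smooth _

end Smooth

end Groth.Agent.Dual.H375.LciLocus
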