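import Groth.Prelude.Def_Dual3
import Groth.Agent.PerfA.Restrict

/-!
# Restricting a compactification to an open of the source
-/

set_option autoImplicit false
universe u
open CategoryTheory CategoryTheory.Limits AlgebraicGeometry
attribute [local instance] HasDerivedCategory.standard

namespace Groth.Agent.Dual.H375.RestrComp
open AlgebraicGeometry.Scheme.Modules Groth.Agent.PerfA

variable {X Y W : Scheme.{u}} {f : X ⟶ Y} (c : DEt.Compactification f) (j : W ⟶ X)
  [IsOpenImmersion j]

/-- The restriction of a compactification to an open of the source. -/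
def restrictComp : DEt.Compactification (j ≫ f) where
  Xbar := c.Xbar
  j := j ≫ c.j
  fbar := c.fbar
  isOpenImmersion := inferInstance
  isProper := c.isProper
  fac := by rw [Category.assoc, c.fac]

variable (a : DCoh.DQCoh Y ⥤ DCoh.DQCoh c.Xbar)

/-- Cohomology sheaves of `f^!K` and of `(j ≫ f)^!K`. -/
noncomputable def hdIso
    [∀ (U V : Scheme.{u}) (j : U ⟶ V) [IsOpenImmersion j], PreservesFiniteLimits (restrictFunctor j)]
    (K : DCoh.DQCoh Y) (k : ℤ) :
    DCoh.HD ((Dual3.shriekC (restrictComp c j) a).obj K) k ≅
      (DCoh.HD ((Dual3.shriekC c a).obj K) k).restrict j :=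
  Restrict.HDrestrict (j ≫ c.j) (a.obj K).obj k ≪≫
    (restrictFunctorComp j c.j).app (DCoh.HD (a.obj K).obj k) ≪≫
    (restrictFunctor j).mapIso (Restrict.HDrestrict c.j (a.obj K).obj k).symm

end Groth.Agent.Dual.H375.RestrComp
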