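import Groth.Agent.Dual.H375.Hartogs
import Groth.Agent.Dual.H375.ExtRestr
import Groth.Agent.Dual.H375.RestrComp
import Groth.Agent.Dual.H375.LciLocus
import Groth.Agent.Dual.H366.ExtQCoh
import Groth.Agent.CurvesB.OmegaDer
import Groth.Agent.Smoothlim.ConormalRes

/-!
# The fundamental class of an almost lci morphism, from the lci case

Glue: `main` deduces the statement from the lci case on the open where `f` is lci of the right
virtual dimension, and extends by Hartogs.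
-/

set_option autoImplicit false
universe u
open CategoryTheory CategoryTheory.Limits AlgebraicGeometry
attribute [local instance] HasDerivedCategory.standard

namespace Groth.Agent.Dual.H375.Glue
open AlgebraicGeometry.Scheme.Modules Groth.Agent.PerfA Groth.Agent.PerfA.Restrict
open LciLocus RestrComp

/-- The cohomology sheaves of `M` are nonzero exactly in one degree near every point of `V`. -/
def OneDegOn {X : Scheme.{u}} (M : DCoh.D X) (V : X.Opens) : Prop :=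
  ∀ x ∈ V, ∃ (U : X.Opens) (n : ℤ), x ∈ U ∧ ∀ y ∈ U, ∀ k : ℤ,
    Nontrivial ((DCoh.HD M k).presheaf.stalk y) ↔ k = n

/-- The open on which the cohomology of `M` is in degree `-r`. -/
def degOpen {X : Scheme.{u}} (M : DCoh.D X) (V : X.Opens) (n : ℤ) (h : OneDegOn M V) : X.Opens where
  carrier := {x | x ∈ V ∧ Nontrivial ((DCoh.HD M n).presheaf.stalk x)}
  is_open' := by
    rw [isOpen_iff_forall_mem_open]
    rintro x ⟨hxV, hx⟩
    obtain ⟨U, m, hxU, hU⟩ := h x hxV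
    have hm : n = m := (hU x hxU n).1 hx
    subst hm
    exact ⟨(U ⊓ V : X.Opens), fun y hy => ⟨hy.2, (hU y hy.1 n).2 rfl⟩, (U ⊓ V).isOpen, hxU, hxV⟩

theorem mem_degOpen {X : Scheme.{u}} {M : DCoh.D X} {V : X.Opens} {n : ℤ} {h : OneDegOn M V} {x : X} :
    x ∈ degOpen M V n h ↔ x ∈ V ∧ Nontrivial ((DCoh.HD M n).presheaf.stalk x) := Iff.rfl

theorem isZero_restrict_degOpen {X : Scheme.{u}} {M : DCoh.D X} {V : X.Opens} {n : ℤ}
    (h : OneDegOn M V) {k : ℤ} (hk : k ≠ n) :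
    IsZero ((DCoh.HD M k).restrict (degOpen M V n h).ι) := by
  rw [isZero_iff_stalk]
  rintro ⟨x, hx⟩
  refine IsZero.of_iso ?_ ((stalkRestrict (degOpen M V n h).ι ⟨x, hx⟩).app _)
  obtain ⟨U, m, hxU, hU⟩ := h x hx.1
  have hm : n = m := (hU x hxU n).1 hx.2
  have h2 : ¬ Nontrivial ((DCoh.HD M k).presheaf.stalk x) := by
    rw [hU x hxU k]
    omega
  rw [not_nontrivial_iff_subsingleton] at h2
  change IsZero ((DCoh.HD M k).presheaf.stalk x)
  exact AddCommGrpCat.isZero_of_subsingleton _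

theorem le_one_of_not {d : WithBot ℕ∞} (h : ¬ 2 ≤ d) : d ≤ 1 := by
  induction d with
  | bot => exact bot_le
  | coe d =>
    have h1 : ¬ (2 : ℕ∞) ≤ d := fun h' => h (WithBot.coe_le_coe.2 h')
    rw [not_le, ← one_add_one_eq_two] at h1
    exact WithBot.coe_le_coe.2 (Order.le_of_lt_add_one h1)

/-- `Omega.sheaf f` is quasi-coherent. -/
theorem isQCoh_omega {X Y : Scheme.{u}} (f : X ⟶ Y) : Coh.IsQCoh (Omega.sheaf f) :=
  VarietyB.PullSec.isQCoh_pullback _ _ (IdealModule.isQCoh_idealMod _)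

variable (Y X P : Scheme.{u}) [IsNoetherian Y] (f : X ⟶ Y) [LocallyOfFinitePresentation f]
  (i : X ⟶ P) (π : P ⟶ Y) [IsImmersion i] [IsProper π] [Smooth π] (hfac : i ≫ π = f) [Dual3.IsSepFT f]
  (c : DEt.Compactification f) [DCoh.HasRpush c.fbar] (hc : DCoh.RpushPreservesQCoh c.fbar)
  (a : DCoh.DQCoh Y ⥤ DCoh.DQCoh c.Xbar) (adj : DCoh.RpushQ c.fbar hc ⊣ a)
  [∀ (U V : Scheme.{u}) (j : U ⟶ V) [IsOpenImmersion j],
    PreservesFiniteLimits (Scheme.Modules.restrictFunctor j)]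
  (O : DCoh.DQCoh Y) (hO : Nonempty (O.obj ≅ DCoh.inD Y (Coh.structureModule Y))) (r : ℕ)

/-- The statement of the lci case. -/
def LciCase : Prop :=
  ∀ (Y X P : Scheme.{u}) [IsNoetherian Y] (f : X ⟶ Y) [LocallyOfFinitePresentation f]
    (_ : Dual3.IsLCIMor f) (i : X ⟶ P) (π : P ⟶ Y) [IsImmersion i] [IsProper π] [Smooth π]
    (_ : i ≫ π = f) [Dual3.IsSepFT f] (c : DEt.Compactification f) [DCoh.HasRpush c.fbar]
    (hc : DCoh.RpushPreservesQCoh c.fbar) (a : DCoh.DQCoh Y ⥤ DCoh.DQCoh c.Xbar)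
    (_ : DCoh.RpushQ c.fbar hc ⊣ a) [∀ (U V : Scheme.{u}) (j : U ⟶ V) [IsOpenImmersion j],
      PreservesFiniteLimits (Scheme.Modules.restrictFunctor j)] (O : DCoh.DQCoh Y)
    (_ : Nonempty (O.obj ≅ DCoh.inD Y (Coh.structureModule Y))) (r : ℕ)
    (_ : ∀ k : ℤ, k ≠ -(r : ℤ) → IsZero (DCoh.HD ((Dual3.shriekC c a).obj O) k)),
    ∃ (L : X.Modules) (_ : ExtPow.IsExtPow r (Omega.sheaf f) L)
      (cl : L ⟶ DCoh.HD ((Dual3.shriekC c a).obj O) (-(r : ℤ))),
      ∀ x : X, (IsZero ((kernel cl).presheaf.stalk x) ∧ IsZero ((cokernel cl).presheaf.stalk x)) ↔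
        x ∈ f.smoothLocus

include hfac adj hO in
theorem main [IsLocallyNoetherian X] [CompactSpace X] (hlci : LciCase.{u})
    (hcoh : Coh.IsCoh (DCoh.HD ((Dual3.shriekC c a).obj O) (-(r : ℤ))))
    (hdeg : OneDegOn ((Dual3.shriekC c a).obj O) (lciLocus f))
    (hS2 : ∀ x : X, 2 ≤ ringKrullDim (X.presheaf.stalk x) → 2 ≤ LocCoh.depth (X.presheaf.stalk x)
      ((DCoh.HD ((Dual3.shriekC c a).obj O) (-(r : ℤ))).presheaf.stalk x))
    (hsm : ∀ x ∈ f.smoothLocus,
      Nontrivial ((DCoh.HD ((Dual3.shriekC c a).obj O) (-(r : ℤ))).presheaf.stalk x))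
    (hK : ∀ x : X, ringKrullDim (X.presheaf.stalk x) ≤ 1 →
      ∃ U : X.Opens, x ∈ U ∧ Dual3.IsLCIMor (U.ι ≫ f)) :
    ∃ (L : X.Modules) (_ : ExtPow.IsExtPow r (Omega.sheaf f) L)
      (cl : L ⟶ DCoh.HD ((Dual3.shriekC c a).obj O) (-(r : ℤ))),
      ∀ x : X, x ∈ f.smoothLocus →
        IsZero ((kernel cl).presheaf.stalk x) ∧ IsZero ((cokernel cl).presheaf.stalk x) := by
  have hQ : Coh.IsQCoh (Omega.sheaf f) := isQCoh_omega f
  have hL := H366.ExtQCoh.isExtPow_ext (i := r) hQ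
  set M := (Dual3.shriekC c a).obj O with hM
  let V : X.Opens := degOpen M (lciLocus f) (-(r : ℤ)) hdeg
  let fV : (V : Scheme.{u}) ⟶ Y := V.ι ≫ f
  have hVl : V ≤ lciLocus f := fun x hx => hx.1
  have hlV : Dual3.IsLCIMor fV := isLCIMor_of_le hVl (isLCIMor_lciLocus f)
  have hsep : Dual3.IsSepFT fV := ⟨inferInstance, inferInstance, inferInstance⟩
  have hR : DCoh.HasRpush (restrictComp c V.ι).fbar := inferInstanceAs (DCoh.HasRpush c.fbar)
  obtain ⟨LV, hLV, clV, hclV⟩ := hlci Y V P fV hlV (V.ι ≫ i) π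
    (by rw [Category.assoc, hfac]) (restrictComp c V.ι) hc a adj O hO r
    (fun k hk => (isZero_restrict_degOpen hdeg hk).of_iso (hdIso c V.ι a O k))
  -- comparison of exterior powers
  have eΩ : (Omega.sheaf f).restrict V.ι ≅ Omega.sheaf fV :=
    (restrictFunctorIsoPullback V.ι).app _ ≪≫
      Smoothlim.ConormalRes.omegaRestrictIso (j := V.ι) (f' := fV) (l := 𝟙 Y)
        (by rw [Category.comp_id])
  obtain ⟨eL⟩ := ExtRestr.nonempty_iso eΩ (ExtRestr.isExtPow_restrict V hL) hLV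
  obtain ⟨cl, hcl⟩ := Hartogs.exists_extend (L := Krr.H495.ExtPre.ext r (Omega.sheaf f)) hcoh V (by
    intro x hx
    by_cases hxl : x ∈ lciLocus f
    · have h1 : ¬ Nontrivial ((DCoh.HD M (-(r : ℤ))).presheaf.stalk x) := fun h => hx ⟨hxl, h⟩
      rw [not_nontrivial_iff_subsingleton] at h1
      rw [Hartogs.depth_eq_top_of_subsingleton]
      exact le_top
    · apply hS2
      by_contra h2
      have h3 : ringKrullDim (X.presheaf.stalk x) ≤ 1 := le_one_of_not h2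
      obtain ⟨U, hxU, hU⟩ := hK x h3
      exact hxl (mem_lciLocus.2 ⟨U, hxU, hU⟩))
    (eL.hom ≫ clV ≫ (hdIso c V.ι a O (-(r : ℤ))).hom)
  refine ⟨_, hL, cl, fun x hx => ?_⟩
  have hxV : x ∈ V := ⟨smoothLocus_le_lciLocus f hx, hsm x hx⟩
  rw [← StalkIso.isIso_stalk_iff]
  have h1 := (StalkIso.isIso_stalk_restrict_iff V.ι cl ⟨x, hxV⟩).1 ?_
  · exact h1
  · rw [hcl]
    have h2 : IsIso ((stalkAb (⟨x, hxV⟩ : V)).map clV) := by
      rw [StalkIso.isIso_stalk_iff, hclV]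
      change (⟨x, hxV⟩ : V) ∈ (V.ι ≫ f).smoothLocus
      rw [← Scheme.Hom.preimage_smoothLocus_eq]
      exact hx
    rw [Functor.map_comp, Functor.map_comp]
    infer_instance

end Groth.Agent.Dual.H375.Glue
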