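import Groth.Agent.Dual.H375.StalkIso
import Groth.Agent.Divis.ExtendStalk

/-!
# Hartogs extension of morphisms into coherent modules
-/

set_option autoImplicit false
universe u
open CategoryTheory CategoryTheory.Limits AlgebraicGeometry

namespace Groth.Agent.Dual.H375.Hartogs
open AlgebraicGeometry.Scheme.Modules Groth.Agent.PerfA.Restrict

/-- The depth of the zero module is infinite. -/
theorem depth_eq_top_of_subsingleton {R M : Type*} [CommRing R] [IsLocalRing R] [AddCommGroup M]
    [Module R M] [Subsingleton M] : LocCoh.depth R M = ⊤ := by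
  unfold LocCoh.depth LocCoh.idealDepth
  rw [if_pos (Subsingleton.elim _ _)]

variable {X : Scheme.{u}} [IsLocallyNoetherian X]

/-- If the stalks of a coherent module outside an open `V` have depth `≥ 2` then `F ≅ j_* j^* F`. -/
theorem isIso_unit {F : X.Modules} (hF : Coh.IsCoh F) (V : X.Opens)
    (hd : ∀ x : X, x ∉ V → 2 ≤ LocCoh.depth (X.presheaf.stalk x) (F.presheaf.stalk x)) :
    IsIso ((restrictAdjunction V.ι).unit.app F) := by
  rw [Hom.isIso_iff_isIso_app]
  intro W
  rw [restrictAdjunction_unit_app_app]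
  have h := Groth.Agent.Divis.ExtendStalk.bijective_of_stalk hF V (fun x hx => by
    have := Groth.Agent.Divis.StalkMod.finite_stalk hF x
    exact Groth.Agent.Divis.ExtendStalk.exists_regPair_of_two_le_depth (hd x hx)) W
  have hW : V.ι ''ᵁ (V.ι ⁻¹ᵁ W) = W ⊓ V := by
    rw [Scheme.Hom.image_preimage_eq_opensRange_inf, Scheme.Opens.opensRange_ι, inf_comm]
  have h2 : IsIso (F.presheaf.map (homOfLE (inf_le_left : W ⊓ V ≤ W)).op) := by
    rw [ConcreteCategory.isIso_iff_bijective]
    exact h
  have h3 : (homOfLE (V.ι.image_preimage_le W)).op =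
      (homOfLE (inf_le_left : W ⊓ V ≤ W)).op ≫ (eqToHom hW).op := rfl
  have h4 : IsIso (F.presheaf.map (eqToHom hW).op) :=
    Functor.map_isIso F.presheaf (eqToHom hW).op
  rw [h3, Functor.map_comp]
  exact IsIso.comp_isIso' h2 h4

/-- Morphisms into `F` over `V` extend. -/
theorem exists_extend {L F : X.Modules} (hF : Coh.IsCoh F) (V : X.Opens)
    (hd : ∀ x : X, x ∉ V → 2 ≤ LocCoh.depth (X.presheaf.stalk x) (F.presheaf.stalk x))
    (α : L.restrict V.ι ⟶ F.restrict V.ι) : ∃ β : L ⟶ F, (restrictFunctor V.ι).map β = α :=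
  StalkIso.exists_extend V.ι (isIso_unit hF V hd) α

end Groth.Agent.Dual.H375.Hartogs
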