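import Groth.Agent.Dual.H375.Glue
import Mathlib.Algebra.Homology.DerivedCategory.FullyFaithful

/-!
# Invertible objects have cohomology in exactly one degree, locally
-/

set_option autoImplicit false
universe u
open CategoryTheory CategoryTheory.Limits AlgebraicGeometry Opposite TopologicalSpace
attribute [local instance] HasDerivedCategory.standard

namespace Groth.Agent.Dual.H375.OneDeg
open AlgebraicGeometry.Scheme.Modules Groth.Agent.PerfA Groth.Agent.PerfA.Restrict
open LciLocus RestrComp Glue

/-- The stalks of the structure module are nonzero. -/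
theorem nontrivial_stalk_structureModule (X : Scheme.{u}) (x : X) :
    Nontrivial ((Coh.structureModule X).presheaf.stalk x) := by
  have h1 : Nontrivial (X.presheaf.stalk x) := inferInstance
  let s : Γ(Coh.structureModule X, (⊤ : X.Opens)) := (1 : Γ(X, ⊤))
  refine ⟨⟨(Coh.structureModule X).presheaf.germ ⊤ x trivial s, 0, fun h => ?_⟩⟩
  have h2 : (Coh.structureModule X).presheaf.germ ⊤ x trivial s =
      (Coh.structureModule X).presheaf.germ ⊤ x trivial 0 := by rw [h, map_zero]
  obtain ⟨W, hxW, i1, i2, h3⟩ := (Coh.structureModule X).presheaf.germ_eq (U := ⊤) (V := ⊤) x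
    trivial trivial s 0 h2
  rw [map_zero] at h3
  have h4 : X.presheaf.map i1.op (1 : Γ(X, ⊤)) = 0 := h3
  rw [map_one] at h4
  have h5 : (1 : X.presheaf.stalk x) = 0 := by
    rw [← map_one (X.presheaf.germ W x hxW).hom, h4, map_zero]
  exact one_ne_zero h5

/-- Nontriviality of stalks is invariant under isomorphisms. -/
theorem nontrivial_stalk_congr {X : Scheme.{u}} {M N : X.Modules} (e : M ≅ N) (x : X) :
    Nontrivial (M.presheaf.stalk x) ↔ Nontrivial (N.presheaf.stalk x) := by
  have e' : M.presheaf.stalk x ≅ N.presheaf.stalk x := (stalkAb x).mapIso e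
  exact e'.addCommGroupIsoToAddEquiv.toEquiv.nontrivial_congr

/-- Nontriviality of stalks of a restriction. -/
theorem nontrivial_stalk_restrict {X U : Scheme.{u}} (j : U ⟶ X) [IsOpenImmersion j] (M : X.Modules)
    (x : U) : Nontrivial ((M.restrict j).presheaf.stalk x) ↔ Nontrivial (M.presheaf.stalk (j x)) := by
  have e' : (M.restrict j).presheaf.stalk x ≅ M.presheaf.stalk (j x) := (stalkRestrict j x).app M
  exact e'.addCommGroupIsoToAddEquiv.toEquiv.nontrivial_congr

/-- Stalks of the cohomology of `O[n]`. -/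
theorem nontrivial_stalk_shift (X : Scheme.{u}) (n k : ℤ) (x : X) :
    Nontrivial ((DCoh.HD ((DCoh.inD X (Coh.structureModule X))⟦n⟧) k).presheaf.stalk x) ↔ k = -n := by
  have e : DCoh.HD ((DCoh.inD X (Coh.structureModule X))⟦n⟧) k ≅
      DCoh.HD (DCoh.inD X (Coh.structureModule X)) (n + k) :=
    ((DerivedCategory.homologyFunctor X.Modules 0).shiftIso n k (n + k) rfl).app _
  rw [nontrivial_stalk_congr e]
  by_cases h : k = -n
  · have h0 : n + k = 0 := by omega
    rw [h0]
    have e0 : DCoh.HD (DCoh.inD X (Coh.structureModule X)) 0 ≅ Coh.structureModule X :=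
      (DerivedCategory.singleFunctorCompHomologyFunctorIso X.Modules 0).app (Coh.structureModule X)
    rw [nontrivial_stalk_congr e0]
    exact iff_of_true (nontrivial_stalk_structureModule X x) h
  · have hz : IsZero (DCoh.HD (DCoh.inD X (Coh.structureModule X)) (n + k)) := by
      have hne : n + k ≠ 0 := by omega
      rcases lt_or_gt_of_ne hne with h | h
      · exact DerivedCategory.isZero_of_isGE
          ((DerivedCategory.singleFunctor X.Modules 0).obj (Coh.structureModule X)) 0 (n + k) h
      · exact DerivedCategory.isZero_of_isLE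
          ((DerivedCategory.singleFunctor X.Modules 0).obj (Coh.structureModule X)) 0 (n + k) h
    refine iff_of_false ?_ h
    rw [not_nontrivial_iff_subsingleton]
    exact AddCommGrpCat.subsingleton_of_isZero ((stalkAb x).map_isZero hz)

/-- If `M|_V` is invertible, its cohomology is in exactly one degree near every point of `V`. -/
theorem oneDegOn {X : Scheme.{u}} {M : DCoh.D X} (V : X.Opens) (MV : DCoh.D (V : Scheme.{u}))
    [∀ (U : Scheme.{u}) (j : U ⟶ (V : Scheme.{u})) [IsOpenImmersion j],
      PreservesFiniteLimits (Scheme.Modules.restrictFunctor j)]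
    (e : ∀ k : ℤ, DCoh.HD MV k ≅ (DCoh.HD M k).restrict V.ι) (h : Dual3.IsInvertibleD MV) :
    OneDegOn M V := by
  intro x hx
  obtain ⟨U, n, hxU, ⟨e'⟩⟩ := h ⟨x, hx⟩
  refine ⟨V.ι ''ᵁ U, -n, ⟨⟨x, hx⟩, hxU, rfl⟩, ?_⟩
  rintro _ ⟨y, hy, rfl⟩ k
  have h1 : DCoh.HD ((DCoh.inD (U : Scheme.{u}) (Coh.structureModule (U : Scheme.{u})))⟦n⟧) k ≅
      (DCoh.HD MV k).restrict U.ι :=
    (DerivedCategory.homologyFunctor _ k).mapIso e'.symm ≪≫ HDrestrict U.ι MV k
  have h2 := nontrivial_stalk_shift (U : Scheme.{u}) n k ⟨y, hy⟩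
  rw [nontrivial_stalk_congr h1, nontrivial_stalk_restrict U.ι] at h2
  change Nontrivial ((DCoh.HD MV k).presheaf.stalk y) ↔ k = -n at h2
  rw [nontrivial_stalk_congr (e k), nontrivial_stalk_restrict V.ι] at h2
  exact h2

end Groth.Agent.Dual.H375.OneDeg
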